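import Cfsg.Agent.H440.TwoGen.Alt
import Cfsg.Prelude.Def_Classical

/-!
# The alternating groups are generated by an involution and another element (helper581, task K8 of S4180)
-/

set_option autoImplicit false

namespace Cfsg.Agent.H581.DG.AltInv

open Equiv Equiv.Perm Subgroup
open Cfsg.Agent.CharactersDeep.SchurAltPerm Cfsg.Agent.H440.TwoGen.Alt

/-- a generating pair with an involution in the ambient symmetric group -/
def Pair (n : ℕ) : Prop :=
  ∃ c b : Perm (Fin n), c * c = 1 ∧ c ≠ 1 ∧ Perm.sign c = 1 ∧ Perm.sign b = 1 ∧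
    alternatingGroup (Fin n) ≤ closure ({c, b} : Set (Perm (Fin n)))

theorem finRotate_pow_apply {m : ℕ} (j : ℕ) (i : Fin (m + 1)) :
    ((finRotate (m + 1)) ^ j) i = i + (Fin.ofNat (m + 1) j) := by
  induction j with
  | zero => simp
  | succ j ih =>
    rw [pow_succ', Perm.mul_apply, ih, finRotate_apply, add_assoc]
    congr 1
    apply Fin.ext
    simp [Fin.val_add, Nat.add_mod]

theorem swap_mul_swap_sq {α : Type*} [DecidableEq α] {a b c d : α} (h1 : a ≠ c) (h2 : a ≠ d) (h3 : b ≠ c)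
    (h4 : b ≠ d) : Commute (swap a b) (swap c d) := by
  have h := conj_swap (swap a b) c d
  rw [swap_apply_of_ne_of_ne h1.symm h3.symm, swap_apply_of_ne_of_ne h2.symm h4.symm] at h
  calc swap a b * swap c d = (swap a b * swap c d * (swap a b)⁻¹) * swap a b := by group
    _ = swap c d * swap a b := by rw [h]

theorem dbl_sq {α : Type*} [DecidableEq α] {a b c d : α} (h1 : a ≠ c) (h2 : a ≠ d) (h3 : b ≠ c) (h4 : b ≠ d) :
    swap a b * swap c d * (swap a b * swap c d) = 1 := by
  have h := swap_mul_swap_sq h1 h2 h3 h4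
  calc swap a b * swap c d * (swap a b * swap c d) = swap a b * (swap c d * swap a b) * swap c d := by group
    _ = swap a b * (swap a b * swap c d) * swap c d := by rw [h.eq]
    _ = (swap a b * swap a b) * (swap c d * swap c d) := by group
    _ = 1 := by rw [swap_mul_self, swap_mul_self, one_mul]

theorem dbl_ne {α : Type*} [DecidableEq α] {a b c d : α} (h0 : a ≠ b) (h1 : a ≠ c) (h2 : a ≠ d) :
    swap a b * swap c d ≠ 1 := by
  intro h
  have h3 : (swap a b * swap c d) a = a := by rw [h]; rfl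
  rw [Perm.mul_apply, swap_apply_of_ne_of_ne h1 h2, swap_apply_left] at h3
  exact h0 h3.symm

theorem pair_odd {n : ℕ} (hn : 5 ≤ n) (ho : Odd n) : Pair n := by
  obtain ⟨k, hk⟩ := ho
  obtain ⟨m, rfl⟩ : ∃ m, n = m + 1 := ⟨n - 1, by omega⟩
  have hm : m = 2 * k := by omega
  have hrot : ∀ i (h : i + 1 < m + 1), finRotate (m + 1) ⟨i, by omega⟩ = ⟨i + 1, h⟩ := by
    intro i h
    exact finRotate_of_lt (by omega)
  set h : ℕ := k + 1 with hh
  let p0 : Fin (m + 1) := ⟨0, by omega⟩
  let p1 : Fin (m + 1) := ⟨1, by omega⟩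
  let p2 : Fin (m + 1) := ⟨2, by omega⟩
  let ph : Fin (m + 1) := ⟨h, by omega⟩
  let ph1 : Fin (m + 1) := ⟨h + 1, by omega⟩
  let c : Perm (Fin (m + 1)) := swap p0 p1 * swap ph ph1
  have hcomm : Commute (swap p0 p1) (swap ph ph1) :=
    swap_mul_swap_sq (ne_mk _ _ (by omega)) (ne_mk _ _ (by omega)) (ne_mk _ _ (by omega)) (ne_mk _ _ (by omega))
  have hc2 : c * c = 1 :=
    dbl_sq (ne_mk _ _ (by omega)) (ne_mk _ _ (by omega)) (ne_mk _ _ (by omega)) (ne_mk _ _ (by omega))
  refine ⟨c, finRotate (m + 1), hc2, ?_, ?_, ?_, ?_⟩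
  · exact dbl_ne (ne_mk _ _ (by omega)) (ne_mk _ _ (by omega)) (ne_mk _ _ (by omega))
  · rw [Perm.sign_mul, sign_swap (ne_mk _ _ (by omega)), sign_swap (ne_mk _ _ (by omega))]
    rfl
  · rw [sign_finRotate, Nat.add_sub_cancel, hm, pow_mul]
    simp
  · set S := closure ({c, finRotate (m + 1)} : Set (Perm (Fin (m + 1)))) with hS
    have hcS : c ∈ S := subset_closure (Set.mem_insert _ _)
    have hrS : finRotate (m + 1) ∈ S := subset_closure (Set.mem_insert_of_mem _ (Set.mem_singleton _))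
    refine odd_case hn S _ hrot hrS ?_
    have hpS : (finRotate (m + 1)) ^ h ∈ S := pow_mem hrS h
    have e0 : ((finRotate (m + 1)) ^ h) p0 = ph := by
      rw [finRotate_pow_apply]
      apply Fin.ext
      simp only [Fin.val_add, Fin.ofNat, p0, ph]
      rw [Nat.zero_add, Nat.mod_mod, Nat.mod_eq_of_lt (by omega)]
    have e1 : ((finRotate (m + 1)) ^ h) p1 = ph1 := by
      rw [finRotate_pow_apply]
      apply Fin.ext
      simp only [Fin.val_add, Fin.ofNat, p1, ph1]
      rw [Nat.add_mod_mod, Nat.mod_eq_of_lt (by omega)]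
      omega
    have e2 : ((finRotate (m + 1)) ^ h) ph = p1 := by
      rw [finRotate_pow_apply]
      apply Fin.ext
      simp only [Fin.val_add, Fin.ofNat, p1, ph]
      rw [Nat.add_mod_mod, show h + h = 1 + (m + 1) by omega, Nat.add_mod_right, Nat.mod_eq_of_lt (by omega)]
    have e3 : ((finRotate (m + 1)) ^ h) ph1 = p2 := by
      rw [finRotate_pow_apply]
      apply Fin.ext
      simp only [Fin.val_add, Fin.ofNat, p2, ph1]
      rw [Nat.add_mod_mod, show h + 1 + h = 2 + (m + 1) by omega, Nat.add_mod_right, Nat.mod_eq_of_lt (by omega)]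
    have h1 : (finRotate (m + 1)) ^ h * c * ((finRotate (m + 1)) ^ h)⁻¹ = swap ph ph1 * swap p1 p2 := by
      have : (finRotate (m + 1)) ^ h * c * ((finRotate (m + 1)) ^ h)⁻¹ =
          ((finRotate (m + 1)) ^ h * swap p0 p1 * ((finRotate (m + 1)) ^ h)⁻¹) *
          ((finRotate (m + 1)) ^ h * swap ph ph1 * ((finRotate (m + 1)) ^ h)⁻¹) := by
        change _ * (swap p0 p1 * swap ph ph1) * _ = _
        group
      rw [this, conj_swap, conj_swap, e0, e1, e2, e3]
    have h2 : x p0 p1 p2 = c * ((finRotate (m + 1)) ^ h * c * ((finRotate (m + 1)) ^ h)⁻¹) := by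
      rw [h1]
      change _ = swap p0 p1 * swap ph ph1 * (swap ph ph1 * swap p1 p2)
      rw [mul_assoc, ← mul_assoc (swap ph ph1) (swap ph ph1), swap_mul_self, one_mul, x_def]
      have h3 := conj_swap (swap p0 p1) p1 p2
      rw [swap_apply_right, swap_apply_of_ne_of_ne (ne_mk _ _ (by omega)) (ne_mk _ _ (by omega)), swap_inv] at h3
      rw [← h3, mul_assoc, swap_mul_self, mul_one]
    change x p0 p1 p2 ∈ S
    rw [h2]
    exact mul_mem hcS (mul_mem (mul_mem hpS hcS) (inv_mem hpS))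

theorem pair_even {n : ℕ} (hn : 8 ≤ n) (he : Even n) : Pair n := by
  obtain ⟨k, hk⟩ := he
  obtain ⟨m, rfl⟩ : ∃ m, n = m + 1 := ⟨n - 1, by omega⟩
  have hm : Odd m := ⟨k - 1, by omega⟩
  have hrot : ∀ i (h : i + 1 < m + 1), finRotate (m + 1) ⟨i, by omega⟩ = ⟨i + 1, h⟩ := by
    intro i h
    exact finRotate_of_lt (by omega)
  let p0 : Fin (m + 1) := ⟨0, by omega⟩
  let p1 : Fin (m + 1) := ⟨1, by omega⟩
  let p2 : Fin (m + 1) := ⟨2, by omega⟩
  let p3 : Fin (m + 1) := ⟨3, by omega⟩
  let p4 : Fin (m + 1) := ⟨4, by omega⟩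
  let p5 : Fin (m + 1) := ⟨5, by omega⟩
  let p6 : Fin (m + 1) := ⟨6, by omega⟩
  let b : Perm (Fin (m + 1)) := swap p0 p1 * finRotate (m + 1)
  have hb0 : b p0 = p0 := by
    change (swap p0 p1 * finRotate (m + 1)) p0 = p0
    rw [Perm.mul_apply, hrot 0 (by omega)]
    exact swap_apply_right _ _
  have hb : ∀ i (h : i + 1 < m + 1), 1 ≤ i → b ⟨i, by omega⟩ = ⟨i + 1, h⟩ := by
    intro i h hi
    change (swap p0 p1 * finRotate (m + 1)) _ = _
    rw [Perm.mul_apply, hrot i h, swap_apply_of_ne_of_ne (ne_mk _ _ (by omega)) (ne_mk _ _ (by omega))]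
  let c : Perm (Fin (m + 1)) := swap p0 p1 * swap p3 p5
  have hcomm : Commute (swap p0 p1) (swap p3 p5) :=
    swap_mul_swap_sq (ne_mk _ _ (by omega)) (ne_mk _ _ (by omega)) (ne_mk _ _ (by omega)) (ne_mk _ _ (by omega))
  have hc2 : c * c = 1 :=
    dbl_sq (ne_mk _ _ (by omega)) (ne_mk _ _ (by omega)) (ne_mk _ _ (by omega)) (ne_mk _ _ (by omega))
  refine ⟨c, b, hc2, ?_, ?_, ?_, ?_⟩
  · exact dbl_ne (ne_mk _ _ (by omega)) (ne_mk _ _ (by omega)) (ne_mk _ _ (by omega))
  · rw [Perm.sign_mul, sign_swap (ne_mk _ _ (by omega)), sign_swap (ne_mk _ _ (by omega))]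
    rfl
  · rw [Perm.sign_mul, sign_swap (ne_mk _ _ (by omega)), sign_finRotate, Nat.add_sub_cancel, hm.neg_one_pow]
    rfl
  · set S := closure ({c, b} : Set (Perm (Fin (m + 1)))) with hS
    have hcS : c ∈ S := subset_closure (Set.mem_insert _ _)
    have hbS : b ∈ S := subset_closure (Set.mem_insert_of_mem _ (Set.mem_singleton _))
    refine even_case (by omega) S b hb0 hb hbS ?_
    have h1 : b * c * b⁻¹ = swap p0 p2 * swap p4 p6 := by
      have : b * c * b⁻¹ = (b * swap p0 p1 * b⁻¹) * (b * swap p3 p5 * b⁻¹) := by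
        change _ * (swap p0 p1 * swap p3 p5) * _ = _
        group
      rw [this, conj_swap, conj_swap, hb0, hb 1 (by omega) le_rfl, hb 3 (by omega) (by omega),
        hb 5 (by omega) (by omega)]
    -- the two parts commute
    have hA : Commute (swap p0 p2) (swap p3 p5) :=
      swap_mul_swap_sq (ne_mk _ _ (by omega)) (ne_mk _ _ (by omega)) (ne_mk _ _ (by omega)) (ne_mk _ _ (by omega))
    have hB : Commute (swap p0 p1) (swap p4 p6) :=
      swap_mul_swap_sq (ne_mk _ _ (by omega)) (ne_mk _ _ (by omega)) (ne_mk _ _ (by omega)) (ne_mk _ _ (by omega))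
    have hC : Commute (swap p0 p2) (swap p4 p6) :=
      swap_mul_swap_sq (ne_mk _ _ (by omega)) (ne_mk _ _ (by omega)) (ne_mk _ _ (by omega)) (ne_mk _ _ (by omega))
    have hD : Commute (swap p3 p5) (swap p4 p6) :=
      swap_mul_swap_sq (ne_mk _ _ (by omega)) (ne_mk _ _ (by omega)) (ne_mk _ _ (by omega)) (ne_mk _ _ (by omega))
    have hu : x p0 p1 p2 = (swap p0 p1 * swap p0 p2) * (swap p0 p1 * swap p0 p2) := by
      rw [x_def]
      have h3 := conj_swap (swap p0 p1) p0 p2
      rw [swap_apply_left, swap_apply_of_ne_of_ne (ne_mk _ _ (by omega)) (ne_mk _ _ (by omega)), swap_inv] at h3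
      have h4 := conj_swap (swap p0 p2) p1 p2
      rw [swap_apply_right, swap_apply_of_ne_of_ne (ne_mk _ _ (by omega)) (ne_mk _ _ (by omega)), swap_inv,
        Equiv.swap_comm p1 p0] at h4
      have h5 : swap p0 p1 * swap p0 p2 * (swap p0 p1 * swap p0 p2) =
          (swap p0 p1 * swap p0 p2 * swap p0 p1) * swap p0 p2 := by group
      rw [h5, h3]
      rw [← h4]
      have h6 := swap_mul_self p0 p2
      calc swap p0 p2 * (swap p0 p2 * swap p1 p2 * swap p0 p2) = _ := rfl
        _ = (swap p0 p2 * swap p0 p2) * (swap p1 p2 * swap p0 p2) := by group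
        _ = swap p1 p2 * swap p0 p2 := by rw [h6, one_mul]
    have hv : (swap p3 p5 * swap p4 p6) * (swap p3 p5 * swap p4 p6) = 1 :=
      dbl_sq (ne_mk _ _ (by omega)) (ne_mk _ _ (by omega)) (ne_mk _ _ (by omega)) (ne_mk _ _ (by omega))
    have hcc : c * (b * c * b⁻¹) = (swap p0 p1 * swap p0 p2) * (swap p3 p5 * swap p4 p6) := by
      rw [h1]
      change swap p0 p1 * swap p3 p5 * (swap p0 p2 * swap p4 p6) = _
      calc swap p0 p1 * swap p3 p5 * (swap p0 p2 * swap p4 p6)
          = swap p0 p1 * (swap p3 p5 * swap p0 p2) * swap p4 p6 := by group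
        _ = swap p0 p1 * (swap p0 p2 * swap p3 p5) * swap p4 p6 := by rw [hA.eq]
        _ = _ := by group
    have hE : Commute (swap p0 p1 * swap p0 p2) (swap p3 p5 * swap p4 p6) :=
      (hcomm.mul_left hA).mul_right (hB.mul_left hC)
    have h2 : x p0 p1 p2 = (c * (b * c * b⁻¹)) * (c * (b * c * b⁻¹)) := by
      rw [hcc, hu, hE.symm.mul_mul_mul_comm, hv, mul_one]
    change x p0 p1 p2 ∈ S
    rw [h2]
    have h3 : c * (b * c * b⁻¹) ∈ S := mul_mem hcS (mul_mem (mul_mem hbS hcS) (inv_mem hbS))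
    exact mul_mem h3 h3

theorem pair_six : Pair 6 := by
  let b : Perm (Fin 6) := swap 0 1 * finRotate 6
  let c : Perm (Fin 6) := swap 0 1 * swap 3 5
  refine ⟨c, b, by decide, by decide, by decide, by decide, ?_⟩
  set S := closure ({c, b} : Set (Perm (Fin 6))) with hS
  have hcS : c ∈ S := subset_closure (Set.mem_insert _ _)
  have hbS : b ∈ S := subset_closure (Set.mem_insert_of_mem _ (Set.mem_singleton _))
  refine even_case (by omega) S b (by decide) ?_ hbS ?_
  · intro i h hi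
    have : i = 1 ∨ i = 2 ∨ i = 3 ∨ i = 4 := by omega
    rcases this with rfl | rfl | rfl | rfl <;> rfl
  · have h1 : x (⟨0, by omega⟩ : Fin 6) ⟨1, by omega⟩ ⟨2, by omega⟩ = b * b * c * b⁻¹ * c * b * b * c * b := by
      rw [x_def]; decide +kernel
    rw [h1]
    exact mul_mem (mul_mem (mul_mem (mul_mem (mul_mem (mul_mem (mul_mem (mul_mem hbS hbS) hcS) (inv_mem hbS)) hcS) hbS)
      hbS) hcS) hbS

theorem pair {n : ℕ} (hn : 5 ≤ n) : Pair n := by
  rcases Nat.even_or_odd n with he | ho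
  · obtain ⟨k, hk⟩ := he
    rcases Nat.lt_or_ge n 8 with h | h
    · obtain rfl : n = 6 := by omega
      exact pair_six
    · exact pair_even h ⟨k, hk⟩
  · exact pair_odd hn ho

/-- **an alternating group is generated by an involution and another element** -/
theorem exists_pair {T : Type*} [Group T] (h : Cfsg.IsAlternating T) :
    ∃ c b : T, c ^ 2 = 1 ∧ c ≠ 1 ∧ closure ({c, b} : Set T) = ⊤ := by
  obtain ⟨n, hn, ⟨e⟩⟩ := h
  obtain ⟨c, b, h1, h2, h3, h4, h5⟩ := pair hn
  let c' : alternatingGroup (Fin n) := ⟨c, h3⟩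
  let b' : alternatingGroup (Fin n) := ⟨b, h4⟩
  have key : closure ({c', b'} : Set (alternatingGroup (Fin n))) = ⊤ := by
    rw [eq_top_iff]
    intro y _
    have h6 := h5 y.2
    have e' : closure ({c, b} : Set (Perm (Fin n))) =
        (closure ({c', b'} : Set (alternatingGroup (Fin n)))).map (alternatingGroup (Fin n)).subtype := by
      rw [MonoidHom.map_closure, Set.image_pair]
      rfl
    rw [e'] at h6
    obtain ⟨z, hz, hzy⟩ := h6
    rwa [← Subtype.ext hzy]
  have hc' : c' ^ 2 = 1 := Subtype.ext (by rw [pow_two]; exact h1)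
  refine ⟨e.symm c', e.symm b', by rw [← map_pow, hc', map_one], ?_, ?_⟩
  · intro h6
    apply h2
    have h7 : c' = 1 := e.symm.injective (by rw [h6, map_one])
    exact congrArg Subtype.val h7
  · have h6 : closure ({e.symm c', e.symm b'} : Set T) =
        (closure ({c', b'} : Set (alternatingGroup (Fin n)))).map e.symm.toMonoidHom := by
      rw [MonoidHom.map_closure, Set.image_pair]
      rfl
    rw [h6, key]
    exact Subgroup.map_top_of_surjective _ e.symm.surjective

end Cfsg.Agent.H581.DG.AltInv
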