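import Cfsg.Agent.H581.DG.AltInv
import Cfsg.Agent.H891.DG.Tools
import Cfsg.Agent.Schreier.Alt

/-!
# `Coh` for the alternating groups (helper581, task K8 of S4180)
-/

set_option autoImplicit false

namespace Cfsg.Agent.H581.DG

open Subgroup Cfsg.Agent.H891.DG

universe u

theorem not_comm_of_isAlternating {T : Type u} [Group T] (h : Cfsg.IsAlternating T) : ¬ IsMulCommutative T := by
  obtain ⟨n, hn, ⟨e⟩⟩ := h
  intro hc
  refine Cfsg.Agent.Schreier.Alt.not_comm hn ⟨⟨fun a b => e.symm.injective ?_⟩⟩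
  rw [map_mul, map_mul]
  exact hc.is_comm.comm _ _

/-- **task K8**: the alternating groups -/
theorem coh_alt (T : Type u) [Group T] [Finite T] [IsSimpleGroup T] (h : Cfsg.IsAlternating T) : Coh T := by
  obtain ⟨c, b, h1, h2, h3⟩ := AltInv.exists_pair h
  exact Tools.coh_of_involution (not_comm_of_isAlternating h) h1 h2 h3

end Cfsg.Agent.H581.DG
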